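import Cfsg.Prelude.Def_Classical
import Cfsg.Agent.Lib.Helper60.U34.Data
import Cfsg.Agent.Lib.Helper60.U34.Semi
import Cfsg.Agent.Lib.Helper45.HermSigma
import Cfsg.Agent.Lib.Helper45.HermCenter
import Cfsg.Agent.Lib.Helper5.OrbitHom

/-!
Groups of unbounded order with the prime graph of `PSU₃(4)`: the group `SU₃(4)` (of order 62400,
with trivial centre) is generated by two explicit matrices; it permutes the 2496 conjugates of a
regular element of a torus, and a 12-dimensional space `W` of functions on these with values in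
`ZMod 5` is invariant, elements of order 13 having no non-zero fixed point on it.  The groups
`Wᵏ ⋊ SU₃(4)` then have the same prime graph.
-/

set_option autoImplicit false

namespace Cfsg.Agent.Lib.Helper60.U34

open Cfsg Cfsg.Agent.Lib.Helper60.Cert
open Cfsg.Agent.Lib.Helper60.J3 (closure_left_ind')
open scoped Matrix

instance : Finite SL16 := inferInstance

theorem hF16 : Fintype.card F16 = 4 ^ 2 := card_F16

theorem hexU : ∀ l < 2, ∃ g, ψS g = modelS.toM (Ugen l) := by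
  intro l hl
  interval_cases l
  · exact exists_SL16 Udet_ok.1
  · exact exists_SL16 Udet_ok.2

/-- the group generated by the two packed matrices -/
def Ug : Subgroup SL16 := genGrp modelS ψS Ugen 2

theorem Ugram_ok :
    (toS (Ugen 0))ᵀ * (toS (Ugen 0)).map (Cfsg.Agent.Lib.Helper45.sigmaQ hF16) = 1 ∧
    (toS (Ugen 1))ᵀ * (toS (Ugen 1)).map (Cfsg.Agent.Lib.Helper45.sigmaQ hF16) = 1 := by
  decide +kernel

theorem Ug_le_SU : Ug ≤ Cfsg.SU 3 F16 4 := by
  apply genGrp_le ψS_inj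
  intro l hl
  interval_cases l
  · exact ⟨⟨toS (Ugen 0), Udet_ok.1⟩,
      (Cfsg.Agent.Lib.Helper45.isHermIso_iff_gram hF16 (toS (Ugen 0))).mpr Ugram_ok.1, rfl⟩
  · exact ⟨⟨toS (Ugen 1), Udet_ok.2⟩,
      (Cfsg.Agent.Lib.Helper45.isHermIso_iff_gram hF16 (toS (Ugen 1))).mpr Ugram_ok.2, rfl⟩

theorem card_SU16 {K : Type*} [Field K] [Fintype K] (hK : Fintype.card K = 4 ^ 2) :
    Nat.card (Cfsg.SU 3 K 4) = 62400 := by
  have h := Cfsg.Agent.Lib.Helper45.card_SU hK 3 (by norm_num)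
  rw [Finset.prod_range_succ, Finset.prod_range_succ, Finset.prod_range_one] at h
  norm_num at h
  omega

theorem Ugen_real (k : ℕ) : Real modelS ψS Ug (Ugen k) := by
  rcases k with _ | k
  · exact gen_real hexU 0 (by norm_num)
  · exact gen_real hexU 1 (by norm_num)

theorem S2gen_real : ∀ l < 4, Real modelS ψS Ug (S2gen l) := by
  intro l hl
  have h := allBelow_spec _ _ S2w_ok l hl
  exact (Real.evalW Ugen (S2w l) (fun k _ => Ugen_real k)).of_eq (Nat.eq_of_beq_eq_true h)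

theorem T5gen_real : ∀ l < 2, Real modelS ψS Ug (T5gen l) := by
  intro l hl
  have h := allBelow_spec _ _ T5w_ok l hl
  exact (Real.evalW Ugen (T5w l) (fun k _ => Ugen_real k)).of_eq (Nat.eq_of_beq_eq_true h)

theorem hexS2 : ∀ l < 4, ∃ g, ψS g = modelS.toM (S2gen l) := fun l hl => by
  obtain ⟨g, _, hg⟩ := S2gen_real l hl
  exact ⟨g, hg⟩

theorem hexT5 : ∀ l < 2, ∃ g, ψS g = modelS.toM (T5gen l) := fun l hl => by
  obtain ⟨g, _, hg⟩ := T5gen_real l hl
  exact ⟨g, hg⟩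

/-- a Sylow 2-subgroup -/
def S2g : Subgroup SL16 := genGrp modelS ψS S2gen 4
/-- a torus of order 25 -/
def T5g : Subgroup SL16 := genGrp modelS ψS T5gen 2

theorem card_S2g : Nat.card S2g = 64 := card_L (D := S2L) S2Lok ψS_inj hexS2
theorem card_T5g : Nat.card T5g = 25 := card_L (D := T5L) T5Lok ψS_inj hexT5
theorem S2g_le : S2g ≤ Ug := genGrp_le ψS_inj Ug S2gen_real
theorem T5g_le : T5g ≤ Ug := genGrp_le ψS_inj Ug T5gen_real

theorem l0_real : Real modelS ψS Ug l0c :=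
  (((Ugen_real 1).mul (Ugen_real 1)).mul (Ugen_real 0)).of_eq l0_ok

theorem ba_real : Real modelS ψS Ug bac :=
  ((Ugen_real 1).mul (Ugen_real 0)).of_eq ba_ok

theorem dvd_card_Ug : 62400 ∣ Nat.card Ug := by
  have h64 : 64 ∣ Nat.card Ug := by
    rw [← card_S2g]; exact Subgroup.card_dvd_of_le S2g_le
  have h25 : 25 ∣ Nat.card Ug := by
    rw [← card_T5g]; exact Subgroup.card_dvd_of_le T5g_le
  have h3 : 3 ∣ Nat.card Ug := by
    obtain ⟨g, hg, hgv⟩ := Ugen_real 1
    have h1 : 3 ∣ orderOf g :=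
      prime_dvd_orderOf (μ := modelS) (q := 3) (e := 5) ψS_inj Nat.prime_three hgv b_pow b_ne5
    have h2 : orderOf g ∣ Nat.card Ug := by
      rw [← Subgroup.orderOf_mk g hg]
      exact orderOf_dvd_natCard _
    exact dvd_trans h1 h2
  have h13 : 13 ∣ Nat.card Ug := by
    obtain ⟨g, hg, hgv⟩ := l0_real
    have : Fact (Nat.Prime 13) := ⟨by norm_num⟩
    have h1 : orderOf g = 13 := orderOf_eq_prime_of (μ := modelS) ψS_inj hgv l0_pow l0_ne
    have h2 : orderOf g ∣ Nat.card Ug := by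
      rw [← Subgroup.orderOf_mk g hg]
      exact orderOf_dvd_natCard _
    rw [h1] at h2
    exact h2
  have a1 : 64 * 25 ∣ Nat.card Ug := Nat.Coprime.mul_dvd_of_dvd_of_dvd (by norm_num) h64 h25
  have a2 : 64 * 25 * 3 ∣ Nat.card Ug := Nat.Coprime.mul_dvd_of_dvd_of_dvd (by norm_num) a1 h3
  have a3 : 64 * 25 * 3 * 13 ∣ Nat.card Ug :=
    Nat.Coprime.mul_dvd_of_dvd_of_dvd (by norm_num) a2 h13
  exact a3

theorem Ug_eq_SU : Ug = Cfsg.SU 3 F16 4 := by
  apply Subgroup.eq_of_le_of_card_ge Ug_le_SU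
  rw [card_SU16 hF16]
  exact Nat.le_of_dvd Nat.card_pos dvd_card_Ug

theorem card_Ug : Nat.card Ug = 62400 := by
  rw [Ug_eq_SU, card_SU16 hF16]

/-! ### the permutation action -/

theorem key_lt : ∀ d i : ℕ, i + d + 1 < 2496 → keyS (OmT i) < keyS (OmT (i + d + 1)) := by
  intro d
  induction d with
  | zero =>
    intro i hi
    have h := allBelow_spec _ _ Om_sorted i (by omega)
    simp only [Nat.blt_eq] at h
    exact h
  | succ d ih =>
    intro i hi
    have h := allBelow_spec _ _ Om_sorted (i + d + 1) (by omega)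
    simp only [Nat.blt_eq] at h
    exact lt_trans (ih i (by omega)) h

/-- the conjugates of the regular element -/
def tΩ (i : Fin 2496) : MatS := toS (OmT i.val)

theorem tΩ_inj : Function.Injective tΩ := by
  intro i j h
  have hk : keyS (OmT i.val) = keyS (OmT j.val) := keyS_eq _ _ h
  apply Fin.ext
  by_contra hne
  rcases Nat.lt_or_gt_of_ne hne with hlt | hlt
  · have h1 := key_lt (j.val - i.val - 1) i.val (by omega)
    rw [show i.val + (j.val - i.val - 1) + 1 = j.val by omega] at h1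
    omega
  · have h1 := key_lt (i.val - j.val - 1) j.val (by omega)
    rw [show j.val + (i.val - j.val - 1) + 1 = i.val by omega] at h1
    omega

theorem conj_spec {g : ℕ} {p : ℕ → ℕ} (h : allBelow (chkConj g OmT p 2496) 2496 = true)
    (i : Fin 2496) :
    p i.val < 2496 ∧ toS g * tΩ i = toS (OmT (p i.val)) * toS g := by
  have h1 := allBelow_spec _ _ h i.val i.isLt
  simp only [chkConj, Bool.and_eq_true, Nat.blt_eq] at h1
  refine ⟨h1.2, ?_⟩
  rw [tΩ, ← toS_mulS, ← toS_mulS, Nat.eq_of_beq_eq_true h1.1]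

theorem Ug_induction (P : ↥Ug → Prop) (h1 : P 1)
    (hmul : ∀ x : ↥Ug, (∃ l < 2, ψS x.1 = modelS.toM (Ugen l)) → ∀ y, P y → P (x * y)) :
    ∀ g, P g := by
  intro g
  have htop : Subgroup.closure (((↑) : ↥Ug → SL16) ⁻¹'
      {g | ∃ l < 2, ψS g = modelS.toM (Ugen l)}) = ⊤ :=
    Subgroup.closure_closure_coe_preimage
  exact closure_left_ind' (((↑) : ↥Ug → SL16) ⁻¹' {g | ∃ l < 2, ψS g = modelS.toM (Ugen l)})
    (fun x _ => isOfFinOrder_of_finite x) P h1
    (fun x hx y hy => hmul x hx y hy) g (htop ▸ Subgroup.mem_top g)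

/-- a group mapping to a monoid and permuting an injective family by conjugation acts on the
index set (after helper93) -/
theorem exists_permHom' {H R ι : Type*} [Group H] [Monoid R] (φ : H →* R) (t : ι → R)
    (ht : Function.Injective t) (hinv : ∀ h i, ∃ j, φ h * t i = t j * φ h) :
    ∃ ρ : H →* Equiv.Perm ι, ∀ h i j, ρ h i = j ↔ φ h * t i = t j * φ h := by
  choose f hf using hinv
  have hunit : ∀ h : H, φ h * φ h⁻¹ = 1 := fun h => by rw [← map_mul, mul_inv_cancel, map_one]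
  have huniq : ∀ h i j, φ h * t i = t j * φ h → f h i = j := by
    intro h i j hj
    apply ht
    have h1 : t (f h i) * φ h = t j * φ h := by rw [← hf, hj]
    have h2 := congrArg (· * φ h⁻¹) h1
    simpa [mul_assoc, hunit] using h2
  have h1 : ∀ i, f 1 i = i := fun i => huniq 1 i i (by rw [map_one, one_mul, mul_one])
  have hmul : ∀ g h i, f (g * h) i = f g (f h i) := by
    intro g h i
    apply huniq
    rw [map_mul, mul_assoc, hf h i, ← mul_assoc, hf g, mul_assoc]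
  refine ⟨{ toFun := fun g => ⟨f g, f g⁻¹, fun i => by rw [← hmul, inv_mul_cancel, h1],
              fun i => by rw [← hmul, mul_inv_cancel, h1]⟩
            map_one' := Equiv.ext h1
            map_mul' := fun g h => Equiv.ext (hmul g h) }, fun h i j => ⟨?_, huniq h i j⟩⟩
  intro hj
  have : f h i = j := hj
  rw [← this]
  exact hf h i

theorem hinvU : ∀ (h : ↥Ug) (i : Fin 2496), ∃ j, ψS h.1 * tΩ i = tΩ j * ψS h.1 := by
  apply Ug_induction
  · intro i
    exact ⟨i, by rw [OneMemClass.coe_one, map_one, one_mul, mul_one]⟩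
  · rintro x ⟨l, hl, hx⟩ y hy i
    obtain ⟨j, hj⟩ := hy i
    have hc : ∃ p : ℕ → ℕ, allBelow (chkConj (Ugen l) OmT p 2496) 2496 = true := by
      interval_cases l
      · exact ⟨pa, conjA_ok⟩
      · exact ⟨pb, conjB_ok⟩
    obtain ⟨p, hp⟩ := hc
    obtain ⟨hlt, heq⟩ := conj_spec hp j
    refine ⟨⟨p j.val, hlt⟩, ?_⟩
    rw [Subgroup.coe_mul, map_mul, mul_assoc, hj, ← mul_assoc, hx]
    change toS (Ugen l) * tΩ j * _ = _
    rw [heq, mul_assoc]
    rfl

theorem exists_rho : ∃ ρ : ↥Ug →* Equiv.Perm (Fin 2496),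
    ∀ h i j, ρ h i = j ↔ ψS h.1 * tΩ i = tΩ j * ψS h.1 :=
  exists_permHom' (ψS.comp Ug.subtype) tΩ tΩ_inj hinvU

/-- the action on the conjugates -/
noncomputable def rho : ↥Ug →* Equiv.Perm (Fin 2496) := Classical.choose exists_rho

theorem rho_spec : ∀ (h : ↥Ug) (i j : Fin 2496),
    rho h i = j ↔ ψS h.1 * tΩ i = tΩ j * ψS h.1 := Classical.choose_spec exists_rho

theorem rho_of_chk {g : ℕ} {p : ℕ → ℕ} (hc : allBelow (chkConj g OmT p 2496) 2496 = true)
    (h : ↥Ug) (hh : ψS h.1 = toS g) (i : Fin 2496) :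
    rho h i = ⟨p i.val, (conj_spec hc i).1⟩ := by
  rw [rho_spec, hh]
  exact (conj_spec hc i).2

/-! ### the invariant space -/

/-- the twelve vectors -/
def wv (k : Fin 12) : Fin 2496 → ZMod 5 := fun i => ((wd k.val i.val : ℕ) : ZMod 5)

/-- their span -/
def Wsp : AddSubgroup (Fin 2496 → ZMod 5) := AddSubgroup.closure (Set.range wv)

theorem sumB_cast (f : ℕ → ℕ) (n : ℕ) :
    ((sumB f n : ℕ) : ZMod 5) = ∑ m : Fin n, ((f m.val : ℕ) : ZMod 5) := by
  induction n with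
  | zero => simp [sumB]
  | succ n ih =>
    rw [Fin.sum_univ_castSucc]
    simp only [Fin.val_castSucc, Fin.val_last]
    rw [← ih]
    exact Nat.cast_add _ _

theorem act_gen {g : ℕ} {p : ℕ → ℕ} {c : ℕ → ℕ → ℕ}
    (hc : allBelow (chkConj g OmT p 2496) 2496 = true)
    (hi : allBelow (fun k => allBelow (chkInvar wd c p 12 k) 2496) 12 = true)
    (h : ↥Ug) (hh : ψS h.1 = toS g) (k : Fin 12) :
    actP (rho h) (wv k) = ∑ m : Fin 12, (c k.val m.val) • wv m := by
  funext i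
  rw [actP_apply, Finset.sum_apply]
  have hij : rho h ((rho h).symm i) = i := Equiv.apply_symm_apply _ _
  generalize (rho h).symm i = j at hij
  rw [rho_of_chk hc h hh j] at hij
  have h1 := allBelow_spec _ _ (allBelow_spec _ _ hi k.val k.isLt) j.val j.isLt
  simp only [chkInvar] at h1
  have h2 := (ZMod.natCast_eq_natCast_iff' _ _ 5).mpr (Nat.eq_of_beq_eq_true h1)
  rw [sumB_cast] at h2
  change ((wd k.val j.val : ℕ) : ZMod 5) = _
  rw [h2]
  apply Finset.sum_congr rfl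
  intro m _
  rw [Pi.smul_apply, nsmul_eq_mul]
  rw [show Nat.mul (c k.val m.val) (wd m.val (p j.val)) = c k.val m.val * wd m.val (p j.val)
    from rfl, Nat.cast_mul]
  congr 1
  rw [← hij]
  rfl

theorem Wsp_gen {g : ℕ} {p : ℕ → ℕ} {c : ℕ → ℕ → ℕ}
    (hc : allBelow (chkConj g OmT p 2496) 2496 = true)
    (hi : allBelow (fun k => allBelow (chkInvar wd c p 12 k) 2496) 12 = true)
    (h : ↥Ug) (hh : ψS h.1 = toS g) : ∀ f ∈ Wsp, actP (rho h) f ∈ Wsp := by
  refine closure_invariant _ (Set.range wv) ?_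
  rintro f ⟨k, rfl⟩
  rw [act_gen hc hi h hh k]
  exact AddSubgroup.sum_mem _ (fun m _ =>
    AddSubgroup.nsmul_mem _ (AddSubgroup.subset_closure (Set.mem_range_self m)) _)

theorem Wsp_inv : ∀ l : ↥Ug, ∀ f ∈ Wsp, actP (rho l) f ∈ Wsp := by
  apply Ug_induction
  · intro f hf
    rw [map_one]
    exact hf
  · rintro x ⟨l, hl, hx⟩ y hy f hf
    rw [map_mul, actP_mul]
    have hg : ∀ f ∈ Wsp, actP (rho x) f ∈ Wsp := by
      interval_cases l
      · exact Wsp_gen conjA_ok invA_ok x hx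
      · exact Wsp_gen conjB_ok invB_ok x hx
    exact hg _ (hy f hf)

/-! ### elements of order 13 -/

theorem nsum_cast (σ : Equiv.Perm (Fin 2496)) (s : ℕ → ℕ)
    (hs : ∀ i : Fin 2496, (σ i).val = s i.val) (w : ℕ → ℕ) :
    ∀ (n : ℕ) (i : Fin 2496), ((nsum w s n i.val : ℕ) : ZMod 5) =
      ∑ m ∈ Finset.range n, ((w ((σ ^ m) i).val : ℕ) : ZMod 5) := by
  intro n
  induction n with
  | zero => intro i; simp [nsum]
  | succ n ih =>
    intro i
    rw [Finset.sum_range_succ']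
    rw [show nsum w s (n + 1) i.val = w i.val + nsum w s n (s i.val) from rfl, Nat.cast_add,
      ← hs i, ih (σ i), add_comm]
    congr 1

theorem exists_l0 : ∃ l : ↥Ug, orderOf l = 13 ∧ ∀ f ∈ Wsp, ∀ i, normAt (rho l) f i = 0 := by
  obtain ⟨g, hg, hgv⟩ := l0_real
  have : Fact (Nat.Prime 13) := ⟨by norm_num⟩
  refine ⟨⟨g, hg⟩, ?_, ?_⟩
  · rw [Subgroup.orderOf_mk]
    exact orderOf_eq_prime_of (μ := modelS) ψS_inj hgv l0_pow l0_ne
  · refine closure_norm _ (Set.range wv) ?_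
    rintro f ⟨k, rfl⟩ i
    have hs : ∀ i : Fin 2496, (rho ⟨g, hg⟩ i).val = s0 i.val := by
      intro i
      rw [rho_of_chk conjL_ok ⟨g, hg⟩ hgv i]
    have h1 := allBelow_spec _ _ (allBelow_spec _ _ norm_ok k.val k.isLt) i.val i.isLt
    simp only [chkNorm] at h1
    have h2 : ((nsum (wd k.val) s0 13 i.val : ℕ) : ZMod 5) = 0 :=
      (ZMod.natCast_eq_zero_iff _ _).mpr (Nat.dvd_of_mod_eq_zero (Nat.eq_of_beq_eq_true h1))
    rw [nsum_cast _ s0 hs] at h2
    exact h2

theorem Wsp_fpf : ∀ l : ↥Ug, orderOf l = 13 → ∀ f ∈ Wsp, actP (rho l) f = f → f = 0 := by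
  obtain ⟨l0, hl0, hn⟩ := exists_l0
  refine fpf_of_norm rho Wsp Wsp_inv ?_ l0 hl0 hn
  rw [card_Ug]
  norm_num

/-! ### elements of orders 15 and 10 -/

theorem pow_ne_one_of {g : SL16} {m e : ℕ} (hg : ψS g = modelS.toM m)
    (h : modelS.neq (modelS.powP m e) modelS.oneP = true) : g ^ e ≠ 1 := by
  intro h3
  have h4 := congrArg ψS h3
  rw [map_pow, hg, ← modelS.toM_powP, map_one, ← modelS.toM_one] at h4
  exact modelS.toM_ne h h4

theorem order15 : ∃ g : ↥Ug, orderOf g = 15 := by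
  obtain ⟨g, hg, hgv⟩ := Ugen_real 1
  refine ⟨⟨g, hg⟩, ?_⟩
  rw [Subgroup.orderOf_mk]
  apply orderOf_eq_of_pow_and_pow_div_prime (by norm_num)
    (pow_eq_one_of (μ := modelS) ψS_inj hgv b_pow)
  intro p hp hd
  have h35 : p = 3 ∨ p = 5 := by
    have h15 : p ∣ 3 * 5 := hd
    rcases (Nat.Prime.dvd_mul hp).mp h15 with h | h
    · left; exact (Nat.prime_dvd_prime_iff_eq hp Nat.prime_three).mp h
    · right; exact (Nat.prime_dvd_prime_iff_eq hp Nat.prime_five).mp h
  rcases h35 with rfl | rfl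
  · have e : 15 / 3 = 5 := by norm_num
    rw [e]
    exact pow_ne_one_of (e := 5) hgv b_ne5
  · have e : 15 / 5 = 3 := by norm_num
    rw [e]
    exact pow_ne_one_of (e := 3) hgv b_ne3

theorem order10 : ∃ g : ↥Ug, orderOf g = 10 := by
  obtain ⟨g, hg, hgv⟩ := ba_real
  refine ⟨⟨g, hg⟩, ?_⟩
  rw [Subgroup.orderOf_mk]
  apply orderOf_eq_of_pow_and_pow_div_prime (by norm_num)
    (pow_eq_one_of (μ := modelS) ψS_inj hgv ba_pow)
  intro p hp hd
  have h25 : p = 2 ∨ p = 5 := by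
    have h10 : p ∣ 2 * 5 := hd
    rcases (Nat.Prime.dvd_mul hp).mp h10 with h | h
    · left; exact (Nat.prime_dvd_prime_iff_eq hp Nat.prime_two).mp h
    · right; exact (Nat.prime_dvd_prime_iff_eq hp Nat.prime_five).mp h
  rcases h25 with rfl | rfl
  · have e : 10 / 2 = 5 := by norm_num
    rw [e]
    exact pow_ne_one_of (e := 5) hgv ba_ne5
  · have e : 10 / 5 = 2 := by norm_num
    rw [e]
    exact pow_ne_one_of (e := 2) hgv ba_ne2

/-! ### the groups -/

theorem wv0_ne : wv 0 ≠ 0 := by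
  intro h
  have h1 := congrFun h ⟨2361, by norm_num⟩
  have h2 : ((wd 0 2361 : ℕ) : ZMod 5) = 0 := h1
  rw [ZMod.natCast_eq_zero_iff] at h2
  have h3 := Nat.mod_eq_zero_of_dvd h2
  have h4 := w0_ne
  change wd 0 2361 % 5 = 1 at h4
  omega

theorem main_Ug (N : ℕ) : ∃ (H : Type) (_ : Group H) (_ : Finite H), N < Nat.card H ∧
    ((∀ p : ℕ, p.Prime → (p ∣ Nat.card ↥Ug ↔ p ∣ Nat.card H)) ∧
      (∀ p q : ℕ, p.Prime → q.Prime → p ≠ q →
        ((∃ g : ↥Ug, orderOf g = p * q) ↔ (∃ g : H, orderOf g = p * q)))) := by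
  refine ⟨↥(Hsub (rhoK rho N) (WK N Wsp) (WK_inv rho N Wsp Wsp_inv)), inferInstance,
    inferInstance, ?_, ?_⟩
  · calc N < 2 ^ N := Nat.lt_two_pow_self
      _ ≤ Nat.card (WK N Wsp) :=
        card_WK_ge N Wsp (wv 0) (AddSubgroup.subset_closure ⟨0, rfl⟩) wv0_ne
      _ ≤ _ := card_le_Hsub _ _ _
  · exact same_graph (rhoK rho N) (WK N Wsp) _ card_Ug (WK_fpf rho N Wsp Wsp_fpf)
      order10 order15

/-! ### transfer along a field isomorphism -/

section transfer

variable {K K' : Type*} [Field K] [Field K']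

theorem herm_map' (f : K ≃+* K') (n q : ℕ) (u v : Fin n → K) :
    Cfsg.hermForm n K' q (f ∘ u) (f ∘ v) = f (Cfsg.hermForm n K q u v) := by
  simp [Cfsg.hermForm, map_sum, map_mul, map_pow]

theorem su_map_mem' (f : K ≃+* K') (n q : ℕ) (g : Matrix.SpecialLinearGroup (Fin n) K)
    (hg : g ∈ Cfsg.SU n K q) : Cfsg.Agent.Lib.Helper5.slCongr f g ∈ Cfsg.SU n K' q := by
  intro u v
  have hu : u = f ∘ (f.symm ∘ u) := by funext i; simp
  have hv : v = f ∘ (f.symm ∘ v) := by funext i; simp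
  have hm : ∀ w : Fin n → K,
      (Cfsg.slToMat n K' (Cfsg.Agent.Lib.Helper5.slCongr f g)) *ᵥ (f ∘ w) =
        f ∘ ((Cfsg.slToMat n K g) *ᵥ w) := by
    intro w
    funext i
    exact (RingHom.map_mulVec (f : K →+* K') (g : Matrix (Fin n) (Fin n) K) w i).symm
  rw [hu, hv, hm, hm, herm_map', herm_map']
  exact congrArg f (hg _ _)

theorem su_map_eq' (f : K ≃+* K') (n q : ℕ) :
    (Cfsg.SU n K q).map (Cfsg.Agent.Lib.Helper5.slCongr f).toMonoidHom = Cfsg.SU n K' q := by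
  apply le_antisymm
  · rintro h ⟨g, hg, rfl⟩
    exact su_map_mem' f n q g hg
  · intro h hh
    refine ⟨Cfsg.Agent.Lib.Helper5.slCongr f.symm h, su_map_mem' f.symm n q h hh, ?_⟩
    apply Subtype.ext
    ext i j
    simp [Cfsg.Agent.Lib.Helper5.slCongr, Matrix.SpecialLinearGroup.map_apply_coe]

theorem su_congr' (f : K ≃+* K') (n q : ℕ) : Nonempty (Cfsg.SU n K q ≃* Cfsg.SU n K' q) :=
  ⟨((Cfsg.Agent.Lib.Helper5.slCongr f).subgroupMap (Cfsg.SU n K q)).trans
    (MulEquiv.subgroupCongr (su_map_eq' f n q))⟩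

end transfer

theorem psu_iso {F : Type*} [Field F] [Fintype F] (hF : Fintype.card F = 16) :
    Nonempty (Cfsg.PSU 3 F 4 ≃* ↥Ug) := by
  have e3 : ↥Ug ≃* Cfsg.SU 3 F16 4 := MulEquiv.subgroupCongr Ug_eq_SU
  have f : F16 ≃+* F := FiniteField.ringEquivOfCardEq (by rw [card_F16, hF])
  obtain ⟨e4⟩ := su_congr' f 3 4
  have hF' : Fintype.card F = 4 ^ 2 := by rw [hF]; norm_num
  have hc : Subgroup.center (Cfsg.SU 3 F 4) = ⊥ := by
    apply Subgroup.eq_bot_of_card_eq
    rw [Cfsg.Agent.Lib.Helper45.card_center_SU hF' 3 (by norm_num)]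
    decide
  have e5 : Cfsg.PSU 3 F 4 ≃* Cfsg.SU 3 F 4 :=
    (QuotientGroup.quotientMulEquivOfEq hc).trans QuotientGroup.quotientBot
  exact ⟨e5.trans (e3.trans e4).symm⟩

/-- groups of unbounded order with the prime graph of `PSU₃(4)` -/
theorem main {F : Type*} [Field F] [Fintype F] (hF : Fintype.card F = 16) (N : ℕ) :
    ∃ (H : Type) (_ : Group H) (_ : Finite H), N < Nat.card H ∧
      ((∀ p : ℕ, p.Prime → (p ∣ Nat.card (Cfsg.PSU 3 F 4) ↔ p ∣ Nat.card H)) ∧
      (∀ p q : ℕ, p.Prime → q.Prime → p ≠ q →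
        ((∃ g : (Cfsg.PSU 3 F 4), orderOf g = p * q) ↔ (∃ g : H, orderOf g = p * q)))) := by
  obtain ⟨e⟩ := psu_iso hF
  obtain ⟨H, iG, iF, hN, h1, h2⟩ := main_Ug N
  refine ⟨H, iG, iF, hN, ?_, ?_⟩
  · intro p hp
    rw [Nat.card_congr e.toEquiv]
    exact h1 p hp
  · intro p q hp hq hpq
    rw [← h2 p q hp hq hpq]
    constructor
    · rintro ⟨g, hg⟩
      exact ⟨e g, by rw [MulEquiv.orderOf_eq]; exact hg⟩
    · rintro ⟨g, hg⟩
      exact ⟨e.symm g, by rw [MulEquiv.orderOf_eq]; exact hg⟩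

end Cfsg.Agent.Lib.Helper60.U34
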